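import Cfsg.Agent.Lib.Helper29.OrdPerm
import Cfsg.Agent.Lib.Helper29.SuzA.Ok

/-! Generated: word identities in `Suz` checked on the faithful permutation representation `SuzA`. -/

set_option autoImplicit false
set_option Elab.async false

namespace Cfsg.Agent.Lib.Helper29.SuzA

open Cfsg.Agent.Lib.Helper29 Cfsg.Agent.Lib.Helper29.TcTrace Cfsg.Agent.Lib.Helper29.TcCert
  Cfsg.Agent.Lib.Helper29.TcPerm Cfsg.Agent.Lib.Helper29.TcCox Cfsg.Agent.Lib.Helper29.OrdBasic
  Cfsg.Agent.Lib.Helper29.OrdCox Cfsg.Agent.Lib.Helper29.OrdPerm Cfsg.Spor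

def tx : WT Cfsg.Spor.Suz.Gen := .mul (.leaf .b true) (.mul (.leaf .c true) (.mul (.leaf .d true) (.mul (.leaf .c true) (.leaf .d true))))
def tt : WT Cfsg.Spor.Suz.Gen := .mul tx (.mul tx (.mul tx (.mul tx tx)))

set_option maxRecDepth 100000 in
theorem nrm_a_blk : ∀ k, k < 4 →
    allPts (fun q => Nat.beq (evT P colOf (.mul (.mul (.leaf .a true) tt) (.inv (.leaf .a true))) false q) (evT P colOf tt false q)) P.WL (min 512 (1782 - 512 * k)) (P.WL * (512 * k)) = true := by
  intro k hk
  interval_cases k <;> decide +kernel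
theorem nrm_a (hinj : Function.Injective (phi ok)) :
    lwT Cfsg.Spor.Suz.edges Cfsg.Spor.Suz.extra (.mul (.mul (.leaf .a true) tt) (.inv (.leaf .a true))) = lwT Cfsg.Spor.Suz.edges Cfsg.Spor.Suz.extra tt :=
  lwT_eq_of_chk ok hinj _ _
    (allPts_blocks (fun q => Nat.beq (evT P colOf (.mul (.mul (.leaf .a true) tt) (.inv (.leaf .a true))) false q) (evT P colOf tt false q)) P.WL 512 1782 4 (by decide) (by decide) nrm_a_blk)

set_option maxRecDepth 100000 in
theorem nrm_b_blk : ∀ k, k < 4 →
    allPts (fun q => Nat.beq (evT P colOf (.mul (.mul (.leaf .b true) tt) (.inv (.leaf .b true))) false q) (evT P colOf tt false q)) P.WL (min 512 (1782 - 512 * k)) (P.WL * (512 * k)) = true := by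
  intro k hk
  interval_cases k <;> decide +kernel
theorem nrm_b (hinj : Function.Injective (phi ok)) :
    lwT Cfsg.Spor.Suz.edges Cfsg.Spor.Suz.extra (.mul (.mul (.leaf .b true) tt) (.inv (.leaf .b true))) = lwT Cfsg.Spor.Suz.edges Cfsg.Spor.Suz.extra tt :=
  lwT_eq_of_chk ok hinj _ _
    (allPts_blocks (fun q => Nat.beq (evT P colOf (.mul (.mul (.leaf .b true) tt) (.inv (.leaf .b true))) false q) (evT P colOf tt false q)) P.WL 512 1782 4 (by decide) (by decide) nrm_b_blk)

set_option maxRecDepth 100000 in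
theorem nrm_c_blk : ∀ k, k < 4 →
    allPts (fun q => Nat.beq (evT P colOf (.mul (.mul (.leaf .c true) tt) (.inv (.leaf .c true))) false q) (evT P colOf tt false q)) P.WL (min 512 (1782 - 512 * k)) (P.WL * (512 * k)) = true := by
  intro k hk
  interval_cases k <;> decide +kernel
theorem nrm_c (hinj : Function.Injective (phi ok)) :
    lwT Cfsg.Spor.Suz.edges Cfsg.Spor.Suz.extra (.mul (.mul (.leaf .c true) tt) (.inv (.leaf .c true))) = lwT Cfsg.Spor.Suz.edges Cfsg.Spor.Suz.extra tt :=
  lwT_eq_of_chk ok hinj _ _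
    (allPts_blocks (fun q => Nat.beq (evT P colOf (.mul (.mul (.leaf .c true) tt) (.inv (.leaf .c true))) false q) (evT P colOf tt false q)) P.WL 512 1782 4 (by decide) (by decide) nrm_c_blk)

set_option maxRecDepth 100000 in
theorem nrm_f_blk : ∀ k, k < 4 →
    allPts (fun q => Nat.beq (evT P colOf (.mul (.mul (.leaf .f true) tt) (.inv (.leaf .f true))) false q) (evT P colOf tt false q)) P.WL (min 512 (1782 - 512 * k)) (P.WL * (512 * k)) = true := by
  intro k hk
  interval_cases k <;> decide +kernel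
theorem nrm_f (hinj : Function.Injective (phi ok)) :
    lwT Cfsg.Spor.Suz.edges Cfsg.Spor.Suz.extra (.mul (.mul (.leaf .f true) tt) (.inv (.leaf .f true))) = lwT Cfsg.Spor.Suz.edges Cfsg.Spor.Suz.extra tt :=
  lwT_eq_of_chk ok hinj _ _
    (allPts_blocks (fun q => Nat.beq (evT P colOf (.mul (.mul (.leaf .f true) tt) (.inv (.leaf .f true))) false q) (evT P colOf tt false q)) P.WL 512 1782 4 (by decide) (by decide) nrm_f_blk)

set_option maxRecDepth 100000 in
theorem nrm_g_blk : ∀ k, k < 4 →
    allPts (fun q => Nat.beq (evT P colOf (.mul (.mul (.leaf .g true) tt) (.inv (.leaf .g true))) false q) (evT P colOf tt false q)) P.WL (min 512 (1782 - 512 * k)) (P.WL * (512 * k)) = true := by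
  intro k hk
  interval_cases k <;> decide +kernel
theorem nrm_g (hinj : Function.Injective (phi ok)) :
    lwT Cfsg.Spor.Suz.edges Cfsg.Spor.Suz.extra (.mul (.mul (.leaf .g true) tt) (.inv (.leaf .g true))) = lwT Cfsg.Spor.Suz.edges Cfsg.Spor.Suz.extra tt :=
  lwT_eq_of_chk ok hinj _ _
    (allPts_blocks (fun q => Nat.beq (evT P colOf (.mul (.mul (.leaf .g true) tt) (.inv (.leaf .g true))) false q) (evT P colOf tt false q)) P.WL 512 1782 4 (by decide) (by decide) nrm_g_blk)

set_option maxRecDepth 100000 in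
theorem nrm_d_blk : ∀ k, k < 4 →
    allPts (fun q => Nat.beq (evT P colOf (.mul (.mul (.leaf .d true) tt) (.inv (.leaf .d true))) false q) (evT P colOf (.inv tt) false q)) P.WL (min 512 (1782 - 512 * k)) (P.WL * (512 * k)) = true := by
  intro k hk
  interval_cases k <;> decide +kernel
theorem nrm_d (hinj : Function.Injective (phi ok)) :
    lwT Cfsg.Spor.Suz.edges Cfsg.Spor.Suz.extra (.mul (.mul (.leaf .d true) tt) (.inv (.leaf .d true))) = lwT Cfsg.Spor.Suz.edges Cfsg.Spor.Suz.extra (.inv tt) :=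
  lwT_eq_of_chk ok hinj _ _
    (allPts_blocks (fun q => Nat.beq (evT P colOf (.mul (.mul (.leaf .d true) tt) (.inv (.leaf .d true))) false q) (evT P colOf (.inv tt) false q)) P.WL 512 1782 4 (by decide) (by decide) nrm_d_blk)

set_option maxRecDepth 100000 in
theorem comm_t_blk : ∀ k, k < 4 →
    allPts (fun q => Nat.beq (evT P colOf (.mul (.mul (.mul (.leaf .d true) tt) (.inv (.leaf .d true))) (.inv tt)) false q) (evT P colOf tt false q)) P.WL (min 512 (1782 - 512 * k)) (P.WL * (512 * k)) = true := by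
  intro k hk
  interval_cases k <;> decide +kernel
theorem comm_t (hinj : Function.Injective (phi ok)) :
    lwT Cfsg.Spor.Suz.edges Cfsg.Spor.Suz.extra (.mul (.mul (.mul (.leaf .d true) tt) (.inv (.leaf .d true))) (.inv tt)) = lwT Cfsg.Spor.Suz.edges Cfsg.Spor.Suz.extra tt :=
  lwT_eq_of_chk ok hinj _ _
    (allPts_blocks (fun q => Nat.beq (evT P colOf (.mul (.mul (.mul (.leaf .d true) tt) (.inv (.leaf .d true))) (.inv tt)) false q) (evT P colOf tt false q)) P.WL 512 1782 4 (by decide) (by decide) comm_t_blk)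

end Cfsg.Agent.Lib.Helper29.SuzA
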